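import Cfsg.Agent.Lib.Block.Principal
import Cfsg.Agent.Lib.Block.Height

/-!
# Principal blocks for two primes with trivial intersection (helper11)

If `B₀(p) ∩ B₀(q) = {1}` then every `p`-element has a class of size prime to `q`.
-/

set_option autoImplicit false

namespace Cfsg.Lib.BI

open Cfsg.Lib.Block Cfsg.Lib.Char Cfsg.Lib.Modular Subgroup
open scoped ComplexConjugate

variable {G : Type*} [Group G] [Finite G]

/-- `θ = ∑_{χ ∈ B₀(p)} conj (χ u) χ` lives on the `p`-section of `u`; its sum over the `q`-regular elements is their number, which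
is prime to `q`. -/
theorem not_dvd_index {p q : ℕ} [Fact p.Prime] [Fact q.Prime] {M M' : Ideal AlgInt} [Modular p M] [Modular q M']
    (h : ∀ χ : IrrCharacter G, χ ∈ principalBlock M G → χ ∈ principalBlock M' G → (χ : G → ℂ) = fun _ => 1)
    {u : G} (hu : pPart p u = u) : ¬ q ∣ (centralizer ({u} : Set G)).index := fun hd => by
  classical
  have := Fintype.ofFinite G
  have := Fintype.ofFinite (ConjClasses G)
  let θ : G → ℂ := fun g => ∑ χ with χ ∈ principalBlock M G, (χ : G → ℂ) g * conj ((χ : G → ℂ) u)
  let F : G → ℂ := fun g => if q ∣ orderOf g then 0 else θ g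
  have h1 : ∑ g, F g = ev (irrOne G : G → ℂ) (zreg q (irrOne G : G → ℂ)) := by
    have e : ∀ g, F g = ∑ χ with χ ∈ principalBlock M G,
        (if q ∣ orderOf g then 0 else (irrOne G : G → ℂ) g⁻¹ * (χ : G → ℂ) g) * conj ((χ : G → ℂ) u) := fun g => by
      simp only [F, θ]
      split_ifs <;> simp
    simp only [e]
    rw [Finset.sum_comm]
    simp only [← Finset.sum_mul, ← ev_zreg]
    rw [Finset.sum_eq_single (irrOne G)]
    · simp
    · intro χ hχ h1
      have n : ¬ SameBlock M' (irrOne G : G → ℂ) χ := fun s => h1 (Subtype.ext (h χ (Finset.mem_filter.1 hχ).2 s))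
      rw [ev_zreg_eq_zero (p := q) (M := M') n, zero_mul]
    · intro h1
      exact absurd (by simp [Block.irrOne_mem_principalBlock]) h1
  have h2 : red M' (∑ g, F g) ≠ 0 := by
    have := (mem_principalBlock_iff (p := q) (M := M')).1 (Block.irrOne_mem_principalBlock (G := G))
    rw [show (fun _ : G => (1 : ℂ)) = (irrOne G : G → ℂ) from rfl,
      lam_zbar (irrOne G).2 (irrOne G).2.isGeneralizedCharacter, omega_apply] at this
    rw [h1]
    simpa using this
  have hθ : ∀ g, θ g ∈ locRing M' := fun g => sum_mem fun χ _ =>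
    mul_mem (irr_mem χ g) (χ.2.apply_inv u ▸ irr_mem χ u⁻¹)
  have hF : ∀ g, F g ∈ locRing M' := fun g => by
    simp only [F]
    split_ifs
    exacts [zero_mem _, hθ g]
  have cF : IsClassFunction G F := fun g x => by
    simp only [F, θ, orderOf_conj_eq, fun χ : IrrCharacter G => χ.2.isClassFunction g x]
  apply h2
  rw [sum_eq_sum_conjClasses cF, red_sum _ (fun C : ConjClasses G =>
    ((centralizer ({C.out} : Set G)).index : ℂ) * F C.out) fun C _ => mul_mem (natCast_mem _ _) (hF _)]
  refine Finset.sum_eq_zero fun C _ => ?_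
  rw [red_mul (natCast_mem _ _) (hF _)]
  by_cases c : IsConj (pPart p C.out) (pPart p u)
  · rw [(red_natCast_eq_zero_iff (p := q) _).2, zero_mul]
    rw [hu] at c
    have e : (centralizer ({pPart p C.out} : Set G)).index = (centralizer ({u} : Set G)).index := by
      have a := (centralizer ({pPart p C.out} : Set G)).index_mul_card
      have b := (centralizer ({u} : Set G)).index_mul_card
      rw [card_centralizer_eq_of_isConj c, ← b] at a
      exact Nat.eq_of_mul_eq_mul_right Nat.card_pos a
    refine (e ▸ hd).trans (index_dvd_of_le fun x hx => mem_centralizer_singleton_iff.2 ?_)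
    exact commute_pPart_right (mem_centralizer_singleton_iff.1 hx) p
  · have : F C.out = 0 := by
      simp only [F, θ]
      rw [sum_mul_conj_eq_zero (Block.isPBlock_principalBlock (G := G) (M := M)).fblk_mem_SG c, ite_self]
    rw [this, red_zero, mul_zero]

/-- if every `p`-element has a class of `p`-power size, a Sylow `p`-subgroup is normal -/
theorem normal_of_index {p : ℕ} [hp : Fact p.Prime] (P : Sylow p G)
    (h : ∀ u ∈ (P : Subgroup G), ∀ q : ℕ, q.Prime → q ≠ p → ¬ q ∣ (centralizer ({u} : Set G)).index) :
    (P : Subgroup G).Normal := by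
  let N := (P : Subgroup G).normalCore
  let f := QuotientGroup.mk' N
  by_contra hn
  have h0 : Nontrivial ((P : Subgroup G).map f) := by
    rw [nontrivial_iff_ne_bot, Ne, Subgroup.map_eq_bot_iff, QuotientGroup.ker_mk']
    exact fun l => hn (le_antisymm l (normalCore_le _) ▸ (inferInstance : N.Normal))
  have := (P.isPGroup'.map f).center_nontrivial
  obtain ⟨⟨⟨_, u, hu, rfl⟩, hz⟩, h1⟩ := exists_ne (1 : center ((P : Subgroup G).map f))
  let H := (centralizer ({f u} : Set (G ⧸ N))).comap f
  have l1 : centralizer ({u} : Set G) ≤ H := fun x hx => mem_centralizer_singleton_iff.2 <| by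
    rw [← map_mul, mem_centralizer_singleton_iff.1 hx, map_mul]
  have l2 : (P : Subgroup G) ≤ H := fun x hx => mem_centralizer_singleton_iff.2
    (congrArg Subtype.val (mem_center_iff.1 hz ⟨f x, x, hx, rfl⟩))
  have e : H = ⊤ := by
    rw [← index_eq_one]
    by_contra c
    obtain ⟨q, hq, d⟩ := Nat.exists_prime_and_dvd c
    by_cases k : q = p
    · exact P.not_dvd_index ((k ▸ d).trans (index_dvd_of_le l2))
    · exact h u hu q hq k (d.trans (index_dvd_of_le l1))
  refine h1 (Subtype.ext (Subtype.ext ((QuotientGroup.eq_one_iff u).2 fun g => ?_)))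
  have c : f g * f u = f u * f g := mem_centralizer_singleton_iff.1 (e.ge (mem_top g))
  have m : g * u * g⁻¹ * u⁻¹ ∈ N := (QuotientGroup.eq_one_iff _).1 <| by
    change f _ = 1
    simp only [map_mul, map_inv, c]
    group
  simpa using mul_mem (normalCore_le _ m) hu

/-- if moreover all elements of prime power order prime to `p` have classes of `p'`-size, `G = P × O_{p'}(G)` -/
theorem sup_eq_top {p : ℕ} [hp : Fact p.Prime] (P : Sylow p G) [hP : (P : Subgroup G).Normal]
    (h : ∀ q : ℕ, q.Prime → q ≠ p → ∀ v : G, pPart q v = v → ¬ p ∣ (centralizer ({v} : Set G)).index) :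
    (P : Subgroup G) ⊔ pPrimeCore p G = ⊤ := by
  have cop : (Nat.card P).Coprime (P : Subgroup G).index := P.card_coprime_index
  obtain ⟨K, hK⟩ := exists_right_complement'_of_coprime cop
  have cK : Nat.card K = (P : Subgroup G).index := hK.symm.index_eq_card.symm
  let C := centralizer ((P : Subgroup G) : Set G)
  have c1 : ∀ q : ℕ, q.Prime → q ≠ p → ∀ v : G, pPart q v = v → v ∈ C := fun q hq k v hv => by
    obtain ⟨Q⟩ : Nonempty (Sylow p (centralizer ({v} : Set G))) := inferInstance
    have l : (Q : Subgroup _).map (centralizer ({v} : Set G)).subtype ≤ P := by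
      obtain ⟨R, hR⟩ := (Q.isPGroup'.map (centralizer ({v} : Set G)).subtype).exists_le_sylow
      have := Sylow.unique_of_normal P hP
      exact Subsingleton.elim R P ▸ hR
    have e : (Q : Subgroup _).map (centralizer ({v} : Set G)).subtype = P := by
      refine eq_of_le_of_card_ge l (Nat.le_of_dvd Nat.card_pos ?_)
      rw [card_map_of_injective (subtype_injective _), Q.card_eq_multiplicity, P.card_eq_multiplicity,
        ← (centralizer ({v} : Set G)).index_mul_card, Nat.factorization_mul index_ne_zero_of_finite Nat.card_pos.ne',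
        Finsupp.add_apply, Nat.factorization_eq_zero_of_not_dvd (h q hq k v hv), zero_add]
    exact mem_centralizer_iff.2 fun x hx => mem_centralizer_singleton_iff.1 (map_subtype_le _ (e.ge hx))
  have c2 : K ≤ C := fun y hy => by
    let f := QuotientGroup.mk' C
    refine (QuotientGroup.eq_one_iff y).1 (orderOf_eq_one_iff.1 (by_contra fun c => ?_))
    obtain ⟨q, hq, d⟩ := Nat.exists_prime_and_dvd c
    have k : q ≠ p := fun k => P.not_dvd_index (cK ▸ (k ▸ d).trans ((orderOf_map_dvd f y).trans (K.orderOf_dvd_natCard hy)))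
    have e : f y = f (regPart q y) := by
      conv_lhs => rw [← pPart_mul_regPart q y]
      rw [map_mul, show f (pPart q y) = 1 from (QuotientGroup.eq_one_iff _).2 (c1 q hq k _ (pPart_pPart hq y)), one_mul]
    exact not_dvd_orderOf_map f (not_dvd_orderOf_regPart hq y) (e ▸ d)
  have hn : K.Normal := by
    rw [← normalizer_eq_top_iff, eq_top_iff, ← hK.sup_eq_top]
    refine sup_le (le_trans ?_ (centralizer_le_normalizer _)) le_normalizer
    exact le_centralizer_iff.1 c2
  rw [eq_top_iff, ← hK.sup_eq_top]
  exact sup_le_sup_left (Core.le_pPrimeCore hn (cK ▸ ((Nat.Prime.coprime_iff_not_dvd hp.out).2 P.not_dvd_index).symm)) _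

end Cfsg.Lib.BI
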